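import Cfsg.Agent.H631.VZ.TorC
import Cfsg.Agent.H35.ExcIdx
import Cfsg.Agent.H557.CentChev

/-!
# `G₂(q)`: the frame (helper355, S4842)

* `n_mem_Li` : the reflections lie in the rank one groups;
* `rep_ne` : the simple roots of `G₂` are not conjugate;
* `comm_T`.
-/

set_option autoImplicit false
set_option linter.unusedSectionVars false

open Cfsg

namespace Cfsg.Agent.H355.GT

open CoxeterSystem Cfsg.Agent.ChevalleyStructure.CoxeterGeom Cfsg.Agent.Tits.Roots Cfsg.Agent.Tits.Core
  Cfsg.Agent.Nodes.Reps Cfsg.Agent.Nodes.BNOf Cfsg.Agent.Nodes.Bruhat Cfsg.Agent.Nodes.LeviDec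
open Cfsg.Lie Cfsg.Agent.ChevalleyStructure Cfsg.Agent.ChevalleyStructure.Elts
  Cfsg.Agent.ChevalleyStructure.CoxeterGeomTypes
open Cfsg.Agent.Nodes.RGDChev Cfsg.Agent.KFacts.RgdChevCoord
open Cfsg.Agent.H985.VZ (Li qq)

universe u

theorem hpG2 : IsType chevG2 2 CoxeterMatrix.G₂ := by simp [IsType, typeList]

section gen

variable {D : ChevalleyDatum} {l : ℕ} {M : CoxeterMatrix (Fin l)} (hp : IsType D l M) (K : Type u) [Field K]

theorem n_mem_Li (i : Fin l) : nc hp K i ∈ Li (XX D l K) i := by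
  have hx : ∀ (t : K), (⟨xG hp.inList (D.simple i) t, xG_mem_group hp.inList _ _⟩ : ↥(D.group K)) ∈
      XX D l K (sr i) := fun t => by
    rw [Subgroup.mem_subgroupOf, XV_sr hp]
    exact xG_mem_rootSubgroup hp.inList _ _
  have hy : ∀ (t : K), (⟨xG hp.inList (D.neg (D.simple i)) t, xG_mem_group hp.inList _ _⟩ : ↥(D.group K)) ∈
      XX D l K (-sr i) := fun t => by
    rw [Subgroup.mem_subgroupOf, XV_neg_sr hp]
    exact xG_mem_rootSubgroup hp.inList _ _
  have e : nc hp K i = (⟨xG hp.inList (D.simple i) 1, xG_mem_group hp.inList _ _⟩ : ↥(D.group K)) *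
      ((⟨xG hp.inList (D.neg (D.simple i)) (-(1 : K)⁻¹), xG_mem_group hp.inList _ _⟩ : ↥(D.group K)) *
        (⟨xG hp.inList (D.simple i) 1, xG_mem_group hp.inList _ _⟩ : ↥(D.group K))) := by
    apply Subtype.ext
    exact nG_def hp.inList _ _
  rw [e]
  have h1 : XX D l K (sr i) ≤ Li (XX D l K) i := le_sup_left
  have h2 : XX D l K (-sr i) ≤ Li (XX D l K) i := le_sup_right
  exact mul_mem (h1 (hx 1)) (mul_mem (h2 (hy _)) (h1 (hx 1)))

include hp in
theorem comm_T [Finite K] : ∀ s ∈ TT D K, ∀ t ∈ TT D K, s * t = t * s := H557.CentChev.comm_mem_TT hp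

include hp in
theorem qq_eq {W : Type*} [Group W] (cs : CoxeterSystem M W) [Fintype K] (i : Fin l) :
    qq (XX D l K) i = Fintype.card K := by
  unfold qq
  rw [H35.ExcIdx.card_XX hp K cs (isRoot_sr _ hp.isCartan i), Nat.card_eq_fintype_card]

end gen

/-- the invariant form of `G₂` -/
def qf (x : Fin 2 → ℤ) : ℤ := x 0 ^ 2 - 3 * x 0 * x 1 + 3 * x 1 ^ 2

theorem A00 : cartanOf chevG2 2 0 0 = 2 := by decide +kernel
theorem A01 : cartanOf chevG2 2 0 1 = -3 := by decide +kernel
theorem A10 : cartanOf chevG2 2 1 0 = -1 := by decide +kernel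
theorem A11 : cartanOf chevG2 2 1 1 = 2 := by decide +kernel

theorem rep_ne {W : Type*} [Group W] (cs : CoxeterSystem CoxeterMatrix.G₂ W) (w : W) :
    rep cs hpG2.isCartan w (sr 0) ≠ sr 1 := by
  have key : ∀ (w : W) (x : Fin 2 → ℤ), qf (rep cs hpG2.isCartan w x) = qf x := by
    intro w
    induction w using cs.simple_induction_left with
    | one => intro x; rw [map_one]; rfl
    | mul_simple_left w i ih =>
      intro x
      rw [rep_mul_apply, rep_simple_eq, ← ih x]
      generalize rep cs hpG2.isCartan w x = y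
      have h0 : pairing (cartanOf chevG2 2) 0 y = 2 * y 0 - 3 * y 1 := by
        unfold pairing
        rw [Fin.sum_univ_two, A00, A01]
        ring
      have h1 : pairing (cartanOf chevG2 2) 1 y = - y 0 + 2 * y 1 := by
        unfold pairing
        rw [Fin.sum_univ_two, A10, A11]
        ring
      have s0 : ∀ i : Fin 2, (y - pairing (cartanOf chevG2 2) i y • sr i) 0 =
          y 0 - pairing (cartanOf chevG2 2) i y * (sr i : Fin 2 → ℤ) 0 := fun i => rfl
      have s1 : ∀ i : Fin 2, (y - pairing (cartanOf chevG2 2) i y • sr i) 1 =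
          y 1 - pairing (cartanOf chevG2 2) i y * (sr i : Fin 2 → ℤ) 1 := fun i => rfl
      have e00 : (sr (0 : Fin 2) : Fin 2 → ℤ) 0 = 1 := rfl
      have e01 : (sr (0 : Fin 2) : Fin 2 → ℤ) 1 = 0 := rfl
      have e10 : (sr (1 : Fin 2) : Fin 2 → ℤ) 0 = 0 := rfl
      have e11 : (sr (1 : Fin 2) : Fin 2 → ℤ) 1 = 1 := rfl
      unfold qf
      rw [s0, s1]
      rcases (show i = 0 ∨ i = 1 by fin_cases i <;> simp) with rfl | rfl
      · rw [h0, e00, e01]
        ring
      · rw [h1, e10, e11]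
        ring
  intro h
  have h1 := key w (sr 0)
  rw [h] at h1
  simp [qf, sr] at h1

end Cfsg.Agent.H355.GT
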